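import Cfsg.Agent.H917.Conj.Basic
import Cfsg.Agent.LieRecognition.SzMatrix

/-!
# S4792, row of the Suzuki groups (tool F)

`x = d k`, `k ≠ 1` a diagonal element, `C(x)` is the torus, `A` the centre of the unipotent group.
-/

set_option autoImplicit false

namespace Cfsg.Agent.H973.Conj

open Cfsg Cfsg.Agent.H430.Conj Cfsg.Agent.LieRecognition.SzMatrix

variable {F : Type*} [Field F] {θ : F →+* F} {e : ℕ}

theorem eq_one_of_theta {k : Fˣ} (h : θ (k : F) = 1) : k = 1 := by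
  apply Units.ext
  apply θ.injective
  rw [h, Units.val_one, map_one]

theorem eq_one_of_sq (H : Good F θ e) {k : Fˣ} (h : (k : F) ^ 2 = 1) : k = 1 := by
  rw [← H.sq] at h
  have h1 : θ (k : F) = 1 := θ.injective (by rw [h, map_one])
  exact eq_one_of_theta h1

theorem eq_one_of_sq_eq (H : Good F θ e) {k : Fˣ} (h : (k : F) ^ 2 = θ k) : k = 1 := by
  have h1 : θ (k : F) = k := θ.injective (by rw [H.sq, h])
  rw [h1] at h
  have h2 : (k : F) * (k - 1) = 0 := by linear_combination h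
  rcases mul_eq_zero.1 h2 with h3 | h3
  · exact absurd h3 k.ne_zero
  · exact Units.ext (by rw [Units.val_one]; linear_combination h3)

/-- The centralizer of a non-trivial diagonal element is the torus. -/
theorem eq_d_of_comm (H : Good F θ e) {k : Fˣ} (hk : k ≠ 1) {g : ↥(Cfsg.Lie.Sz F e)}
    (hg : H.d k * g = g * H.d k) : ∃ l : Fˣ, g = H.d l := by
  have h30 : g.1.1 3 0 = 0 := by
    have h1 : (H.D k * g.1).1 3 0 = (g.1 * H.D k).1 3 0 := by
      have := congrArg (fun y : ↥(Cfsg.Lie.Sz F e) => y.1.1 3 0) hg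
      exact this
    have h2 : (H.D k * g.1).1 3 0 = (k : F)⁻¹ * g.1.1 3 0 := by
      rw [Units.val_mul, H.D_val, Matrix.mul_apply, Fin.sum_univ_four]
      simp [Dmat_def]
    have h3 : (g.1 * H.D k).1 3 0 = g.1.1 3 0 * k := by
      rw [Units.val_mul, H.D_val, Matrix.mul_apply, Fin.sum_univ_four]
      simp [Dmat_def]
    rw [h2, h3] at h1
    by_contra hne
    apply hk
    apply eq_one_of_sq H
    have h4 : g.1.1 3 0 * ((k : F) ^ 2 - 1) = 0 := by
      have h5 : (k : F) * ((k : F)⁻¹ * g.1.1 3 0) = k * (g.1.1 3 0 * k) := by rw [h1]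
      rw [mul_inv_cancel_left₀ k.ne_zero] at h5
      linear_combination -h5
    rcases mul_eq_zero.1 h4 with h5 | h5
    · exact absurd h5 hne
    · linear_combination h5
  obtain ⟨a, b, l, rfl⟩ := (H.mem_borel_iff' g).1 ((H.mem_borel g).2 h30)
  refine ⟨l, ?_⟩
  rw [← mul_assoc, H.d_mul_u, mul_assoc (H.u _ _), H.d_mul, mul_assoc (H.u a b), H.d_mul] at hg
  obtain ⟨ha, hb, -⟩ := H.u_mul_d_inj hg
  have ha0 : a = 0 := by
    by_contra hne
    apply hk
    apply eq_one_of_sq_eq H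
    have h2 := theta_ne_zero θ k
    field_simp at ha
    exact ha
  have hb0 : b = 0 := by
    by_contra hne
    apply hk
    apply eq_one_of_theta (θ := θ)
    exact mul_left_cancel₀ hne (by rw [hb, mul_one])
  rw [ha0, hb0, H.u_zero, one_mul]

/-- The centre of the unipotent group. -/
def zU (H : Good F θ e) : Subgroup ↥(Cfsg.Lie.Sz F e) where
  carrier := {g | ∃ b : F, g = H.u 0 b}
  mul_mem' := by
    rintro _ _ ⟨b, rfl⟩ ⟨c, rfl⟩
    exact ⟨b + c, by rw [H.u_mul]; simp⟩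
  one_mem' := ⟨0, H.u_zero.symm⟩
  inv_mem' := by
    rintro _ ⟨b, rfl⟩
    exact ⟨b, by rw [H.u_inv]; simp⟩

theorem row_good [Finite F] (H : Good F θ e) [IsSimpleGroup ↥(Cfsg.Lie.Sz F e)] {k : Fˣ}
    (hk : k ≠ 1) : Row ↥(Cfsg.Lie.Sz F e) := by
  have hcomm : ∀ x ∈ zU H, ∀ y ∈ zU H, x * y = y * x := by
    rintro _ ⟨b, rfl⟩ _ ⟨c, rfl⟩
    rw [H.u_mul, H.u_mul]
    simp only [zero_mul, add_zero, add_comm b c]
  refine row_of_frob (H.d k) (zU H) ⟨⟨fun x y => Subtype.ext (hcomm x x.2 y y.2)⟩⟩ ?_ ?_ ?_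
  · intro h
    have h1 : H.u 0 1 ∈ zU H := ⟨1, rfl⟩
    rw [h, Subgroup.mem_bot, ← H.u_zero] at h1
    exact one_ne_zero (H.u_inj h1).2
  · intro c hc a ha
    obtain ⟨l, rfl⟩ := eq_d_of_comm H hk (Subgroup.mem_centralizer_singleton_iff.1 hc).symm
    obtain ⟨b, rfl⟩ := ha
    refine ⟨b * θ l, ?_⟩
    rw [H.d_mul_u, mul_inv_cancel_right, zero_mul, zero_mul]
  · intro c hc a ha hca
    obtain ⟨l, rfl⟩ := eq_d_of_comm H hk (Subgroup.mem_centralizer_singleton_iff.1 hc).symm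
    obtain ⟨b, rfl⟩ := ha
    rw [H.d_mul_u, zero_mul, zero_mul] at hca
    have h1 := (H.u_inj (mul_right_cancel hca)).2
    by_cases hb : b = 0
    · right
      rw [hb, H.u_zero]
    · left
      have h2 : l = 1 := eq_one_of_theta (θ := θ) (mul_left_cancel₀ hb (by rw [h1, mul_one]))
      rw [h2, H.d_one]

/-- **The row of the Suzuki groups.** -/
theorem row_sz {S : Type*} [Group S] [Finite S] (h : Cfsg.Lie.IsoSuzuki S) (hs : IsSimpleGroup S) :
    Row S := by
  obtain ⟨F, _, _, m, hm, hF, ⟨e⟩⟩ := h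
  have : Finite ↥(Cfsg.Lie.Sz F (2 ^ (m + 1))) := Finite.of_equiv S e.toEquiv
  have : IsSimpleGroup ↥(Cfsg.Lie.Sz F (2 ^ (m + 1))) := by
    have : Nontrivial ↥(Cfsg.Lie.Sz F (2 ^ (m + 1))) := e.symm.toEquiv.nontrivial
    exact IsSimpleGroup.isSimpleGroup_of_surjective e.toMonoidHom e.surjective
  have hcard : 1 < Nat.card Fˣ := by
    rw [Nat.card_units, Nat.card_eq_fintype_card, hF]
    have h1 : 2 ^ 3 ≤ 2 ^ (2 * m + 1) := Nat.pow_le_pow_right (by norm_num) (by omega)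
    omega
  have : Nontrivial Fˣ := Finite.one_lt_card_iff_nontrivial.1 hcard
  obtain ⟨k, hk⟩ := exists_ne (1 : Fˣ)
  exact Row.of_equiv e.symm (row_good (good hF) hk)

end Cfsg.Agent.H973.Conj
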